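import Mathlib
import Cfsg.Agent.Lib.Helper9.S3805.Defs

/-!
# S3805, package SetupB (helper62 for helper9)

From diagonal generators `a, b, i, j` of `N_G(T)` (`HasGens T`) build the identification
`ψ : D₃ × D₃ → N_G(T)` (`Model G T`).
-/

set_option autoImplicit false
set_option maxRecDepth 100000

namespace Cfsg.Agent.Lib.Helper62.S3805

open Cfsg.Agent.Lib.Helper9.S3805

universe u

section Lift

variable {G : Type u} [Group G]

theorem pw_add {a : G} (h3 : a ^ 3 = 1) (k l : ZMod 3) :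
    a ^ (k + l).val = a ^ k.val * a ^ l.val := by
  rw [ZMod.val_add, ← pow_add, ← pow_eq_pow_mod _ h3]

theorem pw_sub {a : G} (h3 : a ^ 3 = 1) (k l : ZMod 3) :
    a ^ (l - k).val = (a ^ k.val)⁻¹ * a ^ l.val := by
  apply eq_inv_mul_of_mul_eq
  rw [← pw_add h3, add_sub_cancel]

theorem conj_pw {a i : G} (hia : i * a * i⁻¹ = a⁻¹) (m : ℕ) :
    i * a ^ m = (a ^ m)⁻¹ * i := by
  have h1 : i * a ^ m * i⁻¹ = (a ^ m)⁻¹ := by
    rw [← conj_pow, hia, inv_pow]
  rw [← h1]
  group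

theorem pw_conj {a i : G} (hia : i * a * i⁻¹ = a⁻¹) (m : ℕ) :
    a ^ m * i = i * (a ^ m)⁻¹ := by
  have h1 := conj_pw hia m
  calc a ^ m * i = a ^ m * ((a ^ m)⁻¹ * i) * (a ^ m)⁻¹ := by
        rw [← h1]; group
    _ = i * (a ^ m)⁻¹ := by group

/-- The homomorphism `D₃ → G` given by `a` of order dividing 3 and an involution `i`
inverting it. -/
def lift3 (a i : G) (h3 : a ^ 3 = 1) (hi : i * i = 1) (hia : i * a * i⁻¹ = a⁻¹) :
    DihedralGroup 3 →* G where
  toFun d := match d with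
    | DihedralGroup.r k => a ^ k.val
    | DihedralGroup.sr k => i * a ^ k.val
  map_one' := by
    rw [DihedralGroup.one_def]
    show a ^ (0 : ZMod 3).val = 1
    rw [ZMod.val_zero, pow_zero]
  map_mul' := by
    rintro (k | k) (l | l)
    · rw [DihedralGroup.r_mul_r]
      exact pw_add h3 k l
    · rw [DihedralGroup.r_mul_sr]
      show i * a ^ (l - k).val = a ^ k.val * (i * a ^ l.val)
      rw [pw_sub h3, ← mul_assoc, ← mul_assoc, pw_conj hia]
    · rw [DihedralGroup.sr_mul_r]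
      show i * a ^ (k + l).val = i * a ^ k.val * a ^ l.val
      rw [pw_add h3, mul_assoc]
    · rw [DihedralGroup.sr_mul_sr]
      show a ^ (l - k).val = i * a ^ k.val * (i * a ^ l.val)
      rw [pw_sub h3, conj_pw hia, mul_assoc ((a ^ k.val)⁻¹) i, ← mul_assoc i i, hi, one_mul]

theorem lift3_r (a i : G) (h3 : a ^ 3 = 1) (hi : i * i = 1) (hia : i * a * i⁻¹ = a⁻¹)
    (k : ZMod 3) : lift3 a i h3 hi hia (DihedralGroup.r k) = a ^ k.val := rfl

theorem lift3_sr (a i : G) (h3 : a ^ 3 = 1) (hi : i * i = 1) (hia : i * a * i⁻¹ = a⁻¹)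
    (k : ZMod 3) : lift3 a i h3 hi hia (DihedralGroup.sr k) = i * a ^ k.val := rfl

end Lift

theorem comm_facts : ∀ p : P, p ≠ 1 →
    ∃ q : P, p * q * p⁻¹ * q⁻¹ = a₀ ∨ p * q * p⁻¹ * q⁻¹ = a₀⁻¹ ∨ p * q * p⁻¹ * q⁻¹ = b₀ ∨
      p * q * p⁻¹ * q⁻¹ = b₀⁻¹ := by
  decide

theorem pow9_facts : ∀ p : P, p ^ 9 = 1 → inT p = true := by
  decide

/-- **Package SetupB.** -/
theorem pkgSetupB : PkgSetupB.{u} := by
  intro G _ _ T hT
  obtain ⟨a, b, i, j, haT, hbT, ha1, hb1, ha3, hb3, hab, hi, hj, hij, hia, hib, hja, hjb, hiN,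
    hjN, hN36, hT9⟩ := hT
  have hjb' : j * b * j⁻¹ = b⁻¹ := hjb
  -- commutation relations
  have cab : Commute a b := hab
  have cij : Commute i j := hij
  have cib : Commute i b := by
    have h1 : i * b = b * i := by
      calc i * b = i * b * i⁻¹ * i := by group
        _ = b * i := by rw [hib]
    exact h1
  have caj : Commute a j := by
    have h1 : j * a = a * j := by
      calc j * a = j * a * j⁻¹ * j := by group
        _ = a * j := by rw [hja]
    exact h1.symm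
  obtain ⟨φ₁, hφ₁⟩ : ∃ φ : DihedralGroup 3 →* G, φ = lift3 a i ha3 hi hia := ⟨_, rfl⟩
  obtain ⟨φ₂, hφ₂⟩ : ∃ φ : DihedralGroup 3 →* G, φ = lift3 b j hb3 hj hjb' := ⟨_, rfl⟩
  have hcomm : ∀ m n : DihedralGroup 3, Commute (φ₁ m) (φ₂ n) := by
    rintro (k | k) (l | l)
    · rw [hφ₁, hφ₂, lift3_r, lift3_r]
      exact cab.pow_pow _ _
    · rw [hφ₁, hφ₂, lift3_r, lift3_sr]
      exact (caj.pow_left _).mul_right (cab.pow_pow _ _)
    · rw [hφ₁, hφ₂, lift3_sr, lift3_r]
      exact (cib.pow_right _).mul_left (cab.pow_pow _ _)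
    · rw [hφ₁, hφ₂, lift3_sr, lift3_sr]
      exact (cij.mul_right (cib.pow_right _)).mul_left
        ((caj.pow_left _).mul_right (cab.pow_pow _ _))
  obtain ⟨ψ, hψ⟩ : ∃ ψ : P →* G, ψ = φ₁.noncommCoprod φ₂ hcomm := ⟨_, rfl⟩
  have hψapp : ∀ p : P, ψ p = φ₁ p.1 * φ₂ p.2 := by
    intro p
    rw [hψ]
    exact MonoidHom.noncommCoprod_apply _ _ _ _
  have hv1 : (1 : ZMod 3).val = 1 := rfl
  have hψa : ψ a₀ = a := by
    rw [hψapp]
    show φ₁ (DihedralGroup.r 1) * φ₂ 1 = a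
    rw [map_one, mul_one, hφ₁, lift3_r, hv1, pow_one]
  have hψb : ψ b₀ = b := by
    rw [hψapp]
    show φ₁ 1 * φ₂ (DihedralGroup.r 1) = b
    rw [map_one, one_mul, hφ₂, lift3_r, hv1, pow_one]
  -- injectivity
  have hinj : Function.Injective ψ := by
    rw [injective_iff_map_eq_one]
    intro p hp
    by_contra hp1
    obtain ⟨q, hq⟩ := comm_facts p hp1
    have h1 : ψ (p * q * p⁻¹ * q⁻¹) = 1 := by
      rw [map_mul, map_mul, map_mul, map_inv, map_inv, hp]
      group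
    rcases hq with hq | hq | hq | hq
    · rw [hq, hψa] at h1
      exact ha1 h1
    · rw [hq, map_inv, hψa, inv_eq_one] at h1
      exact ha1 h1
    · rw [hq, hψb] at h1
      exact hb1 h1
    · rw [hq, map_inv, hψb, inv_eq_one] at h1
      exact hb1 h1
  have haN : a ∈ Subgroup.normalizer (T : Set G) := Subgroup.le_normalizer haT
  have hbN : b ∈ Subgroup.normalizer (T : Set G) := Subgroup.le_normalizer hbT
  have hφ₁N : ∀ x : DihedralGroup 3, φ₁ x ∈ Subgroup.normalizer (T : Set G) := by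
    rintro (k | k)
    · rw [hφ₁, lift3_r]
      exact Subgroup.pow_mem _ haN _
    · rw [hφ₁, lift3_sr]
      exact Subgroup.mul_mem _ hiN (Subgroup.pow_mem _ haN _)
  have hφ₂N : ∀ x : DihedralGroup 3, φ₂ x ∈ Subgroup.normalizer (T : Set G) := by
    rintro (k | k)
    · rw [hφ₂, lift3_r]
      exact Subgroup.pow_mem _ hbN _
    · rw [hφ₂, lift3_sr]
      exact Subgroup.mul_mem _ hjN (Subgroup.pow_mem _ hbN _)
  have hle : ψ.range ≤ Subgroup.normalizer (T : Set G) := by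
    rintro _ ⟨p, rfl⟩
    rw [hψapp]
    exact Subgroup.mul_mem _ (hφ₁N _) (hφ₂N _)
  have hcardP : Nat.card P = 36 := by
    rw [Nat.card_prod, DihedralGroup.nat_card]
  have hcardR : Nat.card ψ.range = 36 := by
    rw [← hcardP]
    exact Nat.card_congr (MonoidHom.ofInjective hinj).toEquiv.symm
  have hrange : ψ.range = Subgroup.normalizer (T : Set G) :=
    Subgroup.eq_of_le_of_card_ge hle (by rw [hN36, hcardR])
  refine ⟨⟨ψ, hinj, hrange, ?_⟩⟩
  intro p
  constructor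
  · intro hpT
    apply pow9_facts
    apply hinj
    rw [map_pow, map_one]
    have h1 : (⟨ψ p, hpT⟩ : T) ^ Nat.card T = 1 := pow_card_eq_one'
    rw [hT9] at h1
    exact congrArg Subtype.val h1
  · intro hp
    obtain ⟨x, y⟩ := p
    rw [hψapp]
    rcases x with k | k
    · rcases y with l | l
      · show φ₁ (DihedralGroup.r k) * φ₂ (DihedralGroup.r l) ∈ T
        rw [hφ₁, hφ₂, lift3_r, lift3_r]
        exact Subgroup.mul_mem _ (Subgroup.pow_mem _ haT _) (Subgroup.pow_mem _ hbT _)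
      · simp [inT, isRot] at hp
    · simp [inT, isRot] at hp

end Cfsg.Agent.Lib.Helper62.S3805
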